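import Mathlib
import Cfsg.Agent.H37.OrdA
import Cfsg.Agent.H37.OrdE
import Cfsg.Agent.H74.OrdersB3
import Cfsg.Agent.BR.Det
import Cfsg.Agent.H74.Ord5040
import Cfsg.Agent.BR.Frob

/-! There is no simple group of order 1512. -/

set_option autoImplicit false

namespace Cfsg.Agent.H52.N1512

open Cfsg Subgroup Cfsg.Agent.BR
open Cfsg.Agent.CharBase (oneIrr)

universe u

section
variable {G : Type u} [Group G] [Finite G]

/-- if `χ` has no `P`-fixed vectors then the sums over the cosets of `P` vanish. -/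
theorem sum_coset_zero (χ : IrrCharacter G) (P : Subgroup G) [Fintype P] (h : ∑ x : P, (χ : G → ℂ) x = 0) (y : G) :
    ∑ x : P, (χ : G → ℂ) ((x : G) * y) = 0 := by
  obtain ⟨d, ρ, hρ, hρχ, hd, -⟩ := H79.irr_exists_rep χ
  have hc : (Nat.card P : ℂ) ≠ 0 := by exact_mod_cast (Nat.card_pos (α := P)).ne'
  let _ : Invertible (Nat.card P : ℂ) := invertibleOfNonzero hc
  let σ : Representation ℂ P (Fin d → ℂ) := ρ.comp P.subtype
  have h1 := Representation.card_inv_mul_sum_char_eq_finrank σ
  have h2 : ∑ x : P, σ.character x = 0 := by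
    rw [← h]
    refine Finset.sum_congr rfl fun x _ => ?_
    rw [← hρχ]
    rfl
  rw [h2, mul_zero] at h1
  have h3 : Module.finrank ℂ (Representation.invariants σ) = 0 := by exact_mod_cast h1.symm
  have h4 : Representation.invariants σ = ⊥ := Submodule.finrank_eq_zero.1 h3
  have h5 : ∑ x : P, ρ (x : G) = 0 := by
    apply LinearMap.ext
    intro w
    have h6 : (∑ x : P, ρ (x : G)) w ∈ Representation.invariants σ := by
      rw [Representation.mem_invariants]
      intro g
      rw [LinearMap.sum_apply, map_sum]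
      refine Fintype.sum_equiv (Equiv.mulLeft g) _ _ fun x => ?_
      change ρ (g : G) (ρ (x : G) w) = ρ (((g * x : P) : G)) w
      rw [Subgroup.coe_mul, map_mul]
      rfl
    rw [h4, Submodule.mem_bot] at h6
    rw [h6]
    rfl
  have h7 : ∀ g : G, (χ : G → ℂ) g = LinearMap.trace ℂ _ (ρ g) := by
    intro g
    rw [← hρχ]
    rfl
  calc ∑ x : P, (χ : G → ℂ) ((x : G) * y) = ∑ x : P, LinearMap.trace ℂ _ (ρ (x : G) * ρ y) := by
        refine Finset.sum_congr rfl fun x _ => ?_
        rw [h7, map_mul]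
    _ = LinearMap.trace ℂ _ ((∑ x : P, ρ (x : G)) * ρ y) := by
        rw [Finset.sum_mul, map_sum]
    _ = 0 := by rw [h5, zero_mul, map_zero]

/-- in a group of order 27, centralizers have order at least 9. -/
theorem nine_dvd {T : Type u} [Group T] [Finite T] (hT : Nat.card T = 27) (z : T) :
    9 ∣ Nat.card (centralizer ({z} : Set T)) := by
  have h3 : Fact (Nat.Prime 3) := ⟨by norm_num⟩
  have hp : IsPGroup 3 T := IsPGroup.of_card (n := 3) (by rw [hT]; norm_num)
  have h1 : Nat.card (centralizer ({z} : Set T)) ∣ 27 := by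
    rw [← hT]
    exact Subgroup.card_subgroup_dvd_card _
  have hnt : Nontrivial T := by
    rw [← Finite.one_lt_card_iff_nontrivial, hT]
    norm_num
  have hcn : Nontrivial (center T) := hp.center_nontrivial
  have hcd : Nat.card (center T) ∣ 27 := by
    rw [← hT]
    exact Subgroup.card_subgroup_dvd_card _
  have hc1 : 1 < Nat.card (center T) := Finite.one_lt_card
  have hc3 : 3 ∣ Nat.card (center T) := by
    have h8 : ∀ d ∈ Nat.divisors 27, 1 < d → 3 ∣ d := by decide +kernel
    exact h8 _ (Nat.mem_divisors.2 ⟨hcd, by norm_num⟩) hc1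
  have hle : center T ≤ centralizer ({z} : Set T) := Subgroup.center_le_centralizer _
  have hd : Nat.card (center T) ∣ Nat.card (centralizer ({z} : Set T)) := Subgroup.card_dvd_of_le hle
  by_cases hz : z ∈ center T
  · have h2 : centralizer ({z} : Set T) = ⊤ := by
      rw [eq_top_iff]
      intro g _
      rw [mem_centralizer_singleton_iff]
      exact mem_center_iff.1 hz g
    rw [h2, Subgroup.card_top, hT]
    norm_num
  · have hne : Nat.card (center T) ≠ Nat.card (centralizer ({z} : Set T)) := by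
      intro h4
      have h5 := Subgroup.eq_of_le_of_card_ge hle h4.ge
      apply hz
      rw [h5]
      exact mem_centralizer_singleton_iff.2 rfl
    have h8 : ∀ d ∈ Nat.divisors 27, ∀ c ∈ Nat.divisors 27, 3 ∣ d → d ∣ c → d ≠ c → 9 ∣ c := by decide +kernel
    exact h8 _ (Nat.mem_divisors.2 ⟨hcd, by norm_num⟩) _ (Nat.mem_divisors.2 ⟨h1, by norm_num⟩) hc3 hd hne

end

theorem F_cases (F : ℤ) (h : F.natAbs ∣ 108) (h1 : 1 < F.natAbs) (h2 : F % 7 = 1) : F = 36 ∨ F = -6 ∨ F = -27 := by
  have h3 : ∀ a ∈ Nat.divisors 108, 1 < a → (((a : ℤ) % 7 = 1 → a = 36) ∧ ((-(a : ℤ)) % 7 = 1 → a = 6 ∨ a = 27)) := by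
    decide +kernel
  have h4 := h3 _ (Nat.mem_divisors.2 ⟨h, by norm_num⟩) h1
  rcases Int.natAbs_eq F with h5 | h5
  · rw [h5] at h2
    have := h4.1 h2
    omega
  · rw [h5] at h2
    have := h4.2 h2
    omega

variable {G : Type u} [Group G] [Finite G] [IsSimpleGroup G]

theorem no_six (hG : ¬ IsMulCommutative G) (h : Nat.card G = 1512) [Fact (Nat.Prime 7)] {P : Subgroup G}
    (hS : Sp 7 P) (hN : Nat.card (normalizer (P : Set G)) = 42) (hC : centralizer (P : Set G) = P) [Fintype P]
    (χ : IrrCharacter G) (hχ : dg χ = 6) (h0 : ∑ x : P, (χ : G → ℂ) x = 0) : False := by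
  have hperf := perfect_of_simple hG
  obtain ⟨t, htN, ht2⟩ : ∃ t ∈ normalizer (P : Set G), orderOf t = 2 := by
    have : Fact (Nat.Prime 2) := ⟨by norm_num⟩
    obtain ⟨v, hv⟩ := exists_prime_orderOf_dvd_card' (G := normalizer (P : Set G)) 2 (by rw [hN]; norm_num)
    exact ⟨v, v.2, by rw [Subgroup.orderOf_coe]; exact hv⟩
  have htP : t ∉ P := by
    intro h1
    have h2 : t ≠ 1 := by
      intro h3
      rw [h3, orderOf_one] at ht2
      omega
    have h3 := hS.orderOf_eq h1 h2
    omega
  have h1 : ∀ x : P, (χ : G → ℂ) ((x : G) * t) = (χ : G → ℂ) t := by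
    intro x
    obtain ⟨y, hy, hyt⟩ := coset_conj hS hC htN htP (z := (x : G) * t) (by
      rw [mul_assoc, mul_inv_cancel, mul_one]
      exact x.2)
    rw [hyt]
    exact CharBase.irr_isClassFunction χ t y
  have h2 := sum_coset_zero χ P h0 t
  rw [Finset.sum_congr rfl (fun x _ => h1 x), Finset.sum_const, nsmul_eq_mul] at h2
  have h3 : (χ : G → ℂ) t = 0 := by
    rcases mul_eq_zero.1 h2 with h4 | h4
    · exfalso
      have : (Finset.univ : Finset P).card ≠ 0 := by
        rw [Finset.card_univ]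
        exact Fintype.card_ne_zero
      exact this (by exact_mod_cast h4)
    · exact h4
  obtain ⟨k, hk⟩ := involution_value hperf χ (z := t) (by rw [← ht2]; exact pow_orderOf_eq_one t)
  rw [h3, hχ] at hk
  have h5 : (6 : ℤ) - 4 * k = 0 := by
    have : ((6 : ℤ) : ℂ) - 4 * ((k : ℤ) : ℂ) = 0 := by
      rw [hk]
      push_cast
      ring
    exact_mod_cast this
  omega

theorem exists_six (hG : ¬ IsMulCommutative G) (h : Nat.card G = 1512) [Fact (Nat.Prime 7)] {P : Subgroup G}
    (hS : Sp 7 P) (hn : (normalizer (P : Set G)).index = 36) (he : ind P = 6) [Fintype P] :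
    ∃ χ : IrrCharacter G, dg χ = 6 ∧ ∑ x : P, (χ : G → ℂ) x = 0 := by
  classical
  have hperf := perfect_of_simple hG
  obtain ⟨B⟩ := CycG.nonempty_data hS
  by_contra hcon
  push Not at hcon
  have hY : B.Y.card = 1 := by
    have := B.cardY
    rw [he] at this
    omega
  obtain ⟨ψ, hψ⟩ := Finset.card_eq_one.1 hY
  have hψY : ψ ∈ B.Y := by rw [hψ]; exact Finset.mem_singleton_self _
  have hψX : ψ ∉ B.X := fun h1 => Finset.disjoint_left.1 B.disj h1 hψY
  have hψ1 : ψ ≠ oneIrr G := fun h1 => hψX (h1 ▸ B.one_mem)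
  -- the possible degrees
  have hlist : ∀ d ∈ Nat.divisors 216, d ≠ 1 → d * d ≤ 1512 →
      ((d % 7 = 1 → d = 8 ∨ d = 36) ∧ (d % 7 = 6 → d = 6 ∨ d = 27)) := by decide +kernel
  have hX : ∀ χ ∈ B.X, χ ≠ oneIrr G → (B.δ χ = 1 ∧ (dg χ = 8 ∨ dg χ = 36)) ∨ (B.δ χ = -1 ∧ dg χ = 27) := by
    intro χ hχ hχ1
    have h1 := B.dvd_X hS hχ
    rw [he, hn] at h1
    have h2 : dg χ ≠ 1 := fun h3 => hχ1 (eq_one_of_perfect hperf h3)
    have h3 := H74.CInv.sq_le χ
    rw [h] at h3
    have h4 := hlist _ (Nat.mem_divisors.2 ⟨h1, by norm_num⟩) h2 h3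
    have h5 := B.congr_X hS hχ
    rcases B.sgn χ hχ with h6 | h6
    · rw [h6] at h5
      exact Or.inl ⟨h6, h4.1 (by omega)⟩
    · rw [h6] at h5
      rcases h4.2 (by omega) with h7 | h7
      · exfalso
        apply hcon χ h7
        rw [B.sum_X hS hχ, h7, h6]
        norm_num
      · exact Or.inr ⟨h6, h7⟩
  have hYd : (B.δ₀ = 1 ∧ (dg ψ = 8 ∨ dg ψ = 36)) ∨ (B.δ₀ = -1 ∧ dg ψ = 27) := by
    have h1 := B.dvd_Y hS hψY
    rw [he, hn] at h1
    have h2 : dg ψ ≠ 1 := fun h3 => hψ1 (eq_one_of_perfect hperf h3)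
    have h3 := H74.CInv.sq_le ψ
    rw [h] at h3
    have h4 := hlist _ (Nat.mem_divisors.2 ⟨h1, by norm_num⟩) h2 h3
    have h5 := B.congr_Y hS hψY
    rw [he] at h5
    rcases B.sgn₀ with h6 | h6
    · rw [h6] at h5
      exact Or.inl ⟨h6, h4.1 (by omega)⟩
    · rw [h6] at h5
      rcases h4.2 (by omega) with h7 | h7
      · exfalso
        apply hcon ψ h7
        rw [B.sum_Y hψY, h7, h6, he]
        norm_num
      · exact Or.inr ⟨h6, h7⟩
  have hdeg := B.degEq hψY
  -- the characters of degree 27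
  set U := B.X.filter (fun χ => χ = oneIrr G ∨ dg χ = 27) with hU
  have hone : oneIrr G ∈ U := Finset.mem_filter.2 ⟨B.one_mem, Or.inl rfl⟩
  have hd1 : dg (oneIrr G) = 1 := by
    have h1 := dg_eq (oneIrr G)
    rw [CharBase.oneIrr_apply] at h1
    exact_mod_cast h1.symm
  have hmod : (∑ χ ∈ B.X, B.δ χ * (dg χ : ℤ)) % 4 = (U.card : ℤ) % 4 := by
    have h1 : ∀ χ ∈ B.X, (B.δ χ * (dg χ : ℤ)) % 4 = (if χ = oneIrr G ∨ dg χ = 27 then (1 : ℤ) else 0) % 4 := by
      intro χ hχ
      by_cases h2 : χ = oneIrr G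
      · rw [if_pos (Or.inl h2), h2, B.δ_one hS, hd1]
        norm_num
      · rcases hX χ hχ h2 with ⟨h3, h4 | h4⟩ | ⟨h3, h4⟩
        · rw [if_neg (by rintro (h5 | h5); exacts [h2 h5, by omega]), h3, h4]
          norm_num
        · rw [if_neg (by rintro (h5 | h5); exacts [h2 h5, by omega]), h3, h4]
          norm_num
        · rw [if_pos (Or.inr h4), h3, h4]
          norm_num
    rw [Finset.sum_int_mod, Finset.sum_congr rfl h1, ← Finset.sum_int_mod, Finset.sum_ite, Finset.sum_const_zero,
      add_zero, Finset.sum_const, nsmul_eq_mul, mul_one]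
  have hUX : U ⊆ B.X := Finset.filter_subset _ _
  have hU27 : ∀ χ ∈ U, χ ≠ oneIrr G → dg χ = 27 := by
    intro χ hχ h1
    exact (Finset.mem_filter.1 hχ).2.resolve_left h1
  have hUc : 1 ≤ U.card := Finset.card_pos.2 ⟨_, hone⟩
  -- sums of squares
  have hsq : ∀ S : Finset (IrrCharacter G), ∑ χ ∈ S, ((dg χ : ℤ)) ^ 2 ≤ 1512 := by
    intro S
    have h1 := H37.Ord.sum_sq_le (1 : G) S (fun χ => (dg χ : ℤ)) (fun χ _ => by rw [dg_eq]; push_cast; rfl)
    have h2 : centralizer ({(1 : G)} : Set G) = ⊤ := by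
      rw [eq_top_iff]
      intro g _
      rw [mem_centralizer_singleton_iff, mul_one, one_mul]
    rw [h2, Subgroup.card_top, h] at h1
    exact_mod_cast h1
  have hUs : ∑ χ ∈ U, ((dg χ : ℤ)) ^ 2 = 1 + 729 * ((U.card : ℤ) - 1) := by
    rw [← Finset.add_sum_erase _ _ hone, hd1]
    rw [Finset.sum_congr rfl (g := fun _ => (729 : ℤ)) (fun χ hχ => by
      rw [hU27 χ (Finset.mem_of_mem_erase hχ) (Finset.ne_of_mem_erase hχ)]
      norm_num)]
    rw [Finset.sum_const, Finset.card_erase_of_mem hone, nsmul_eq_mul, Nat.cast_sub hUc]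
    push_cast
    ring
  have hψU : ψ ∉ U := fun h1 => hψX (hUX h1)
  rcases hYd with ⟨h1, h2⟩ | ⟨h1, h2⟩
  · have h3 := hsq U
    rw [hUs] at h3
    rw [h1] at hdeg
    omega
  · have h3 := hsq (insert ψ U)
    rw [Finset.sum_insert hψU, hUs, h2] at h3
    rw [h1, h2] at hdeg
    omega

theorem n1512 (hG : ¬ IsMulCommutative G) : Nat.card G ≠ 1512 := by
  classical
  intro h
  have hp7 : Fact (Nat.Prime 7) := ⟨by norm_num⟩
  have hp3 : Fact (Nat.Prime 3) := ⟨by norm_num⟩
  obtain ⟨P⟩ : Nonempty (Sylow 7 G) := inferInstance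
  obtain ⟨hS, n, v, hn, hC, hA⟩ := H37.Ord.arith (p := 7) (m := 216) (by rw [h]) (by norm_num)
    (by rw [h]; norm_num) P
  have hm := hA.hm
  have hf := H17.two_mul_card_dvd_factorial_card_sylow (p := 7) hG (by rw [h]; norm_num)
  have hfn : Nat.card (Sylow 7 G) = n := by rw [hn]; exact P.card_eq_index_normalizer
  rw [hfn, h] at hf
  have hnn : n = 36 := by
    have h1 : n ∣ 216 := ⟨_, hm⟩
    have h2 : ∀ n ∈ Nat.divisors 216, n % 7 = 1 → n ≠ 1 → n = 8 ∨ n = 36 := by decide +kernel
    rcases h2 n (Nat.mem_divisors.2 ⟨h1, by norm_num⟩) hA.n_mod hA.n_ne with h3 | h3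
    · exfalso
      rw [h3] at hf
      revert hf
      decide
    · exact h3
  subst hnn
  have hev : ind (P : Subgroup G) * v = 6 := by omega
  have hN42 : Nat.card (normalizer ((P : Subgroup G) : Set G)) = 42 := by
    have h1 := Subgroup.card_mul_index (normalizer ((P : Subgroup G) : Set G))
    rw [← hn, h] at h1
    omega
  have he : ind (P : Subgroup G) = 2 ∨ ind (P : Subgroup G) = 3 ∨ ind (P : Subgroup G) = 6 := by
    have h1 : ind (P : Subgroup G) ∣ 6 := ⟨_, hev.symm⟩
    have h2 := hA.e_two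
    have h3 := Nat.le_of_dvd (by norm_num) h1
    generalize ind (P : Subgroup G) = e at *
    interval_cases e <;> omega
  rcases he with he | he | he
  · -- `e = 2`
    have hv : v = 3 := by rw [he] at hev; omega
    rw [hv] at hC
    obtain ⟨z, hzC, hz3⟩ : ∃ z ∈ centralizer ((P : Subgroup G) : Set G), orderOf z = 3 := by
      obtain ⟨w, hw⟩ := exists_prime_orderOf_dvd_card' (G := centralizer ((P : Subgroup G) : Set G)) 3 (by
        rw [hC]; norm_num)
      exact ⟨w, w.2, by rw [Subgroup.orderOf_coe]; exact hw⟩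
    have hPC : (P : Subgroup G) ≤ centralizer ({z} : Set G) := by
      intro y hy
      rw [mem_centralizer_singleton_iff]
      exact (mem_centralizer_iff.1 hzC y hy)
    -- nine divides
    have h9 : 9 ∣ Nat.card (centralizer ({z} : Set G)) := by
      obtain ⟨T, hT⟩ : ∃ T : Sylow 3 G, z ∈ (T : Subgroup G) := by
        have h1 : IsPGroup 3 (zpowers z) := IsPGroup.of_card (n := 1) (by rw [Nat.card_zpowers, hz3, pow_one])
        obtain ⟨T, hT⟩ := h1.exists_le_sylow
        exact ⟨T, hT (mem_zpowers z)⟩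
      have hTc : Nat.card (T : Subgroup G) = 27 :=
        H17.card_sylow_eq T (k := 3) (m := 56) (by rw [h]; rfl) (by norm_num)
      have h1 := nine_dvd hTc ⟨z, hT⟩
      refine h1.trans ?_
      have h2 : ((centralizer ({(⟨z, hT⟩ : (T : Subgroup G))} : Set (T : Subgroup G))).map
          (T : Subgroup G).subtype) ≤ centralizer ({z} : Set G) := by
        rintro _ ⟨g, hg, rfl⟩
        rw [mem_centralizer_singleton_iff]
        exact congrArg Subtype.val (mem_centralizer_singleton_iff.1 hg)
      have h3 := Subgroup.card_dvd_of_le h2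
      rwa [Subgroup.card_map_of_injective (Subtype.coe_injective)] at h3
    have hCt : centralizer ({z} : Set G) ≠ ⊤ := by
      intro h5
      have h6 : z ∈ center G := by
        rw [mem_center_iff]
        intro g
        have : g ∈ centralizer ({z} : Set G) := by rw [h5]; exact mem_top g
        exact mem_centralizer_singleton_iff.1 this
      rw [H17.center_eq_bot hG, mem_bot] at h6
      rw [h6, orderOf_one] at hz3
      omega
    have h5 := H17.two_mul_card_dvd_factorial hG _ hCt
    rw [h] at h5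
    have h6 := Subgroup.card_mul_index (centralizer ({z} : Set G))
    rw [h] at h6
    have h7 := H17.card_sylow_mul_index_dvd P hPC
    have h8 : (P : Subgroup G).index = 216 := H17.card_sylow_mul P (k := 1) (m := 216) (by rw [h]; rfl) (by norm_num)
    rw [h8] at h7
    have h10 := H17.card_sylow_mod (p := 7) (G := centralizer ({z} : Set G))
    have h11 := H74.SvB.card_cent P hPC
    have h12 : Nat.card (centralizer ({z} : Set G) ⊓ normalizer ((P : Subgroup G) : Set G) : Subgroup G) ∣ 42 := by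
      rw [← hN42]
      exact Subgroup.card_dvd_of_le inf_le_right
    have hi0 : 0 < (centralizer ({z} : Set G)).index := Nat.pos_of_ne_zero Subgroup.FiniteIndex.index_ne_zero
    generalize Nat.card (Sylow 7 (centralizer ({z} : Set G))) = s at *
    generalize (centralizer ({z} : Set G)).index = i at *
    generalize Nat.card (centralizer ({z} : Set G) ⊓ normalizer ((P : Subgroup G) : Set G) : Subgroup G) = k at *
    generalize Nat.card (centralizer ({z} : Set G)) = c at *
    have hs : s = 1 ∨ s = 8 ∨ s = 36 := by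
      have h13 : s ∣ 216 := (Dvd.intro _ rfl).trans h7
      have h2 : ∀ n ∈ Nat.divisors 216, n % 7 = 1 → n = 1 ∨ n = 8 ∨ n = 36 := by decide +kernel
      exact h2 s (Nat.mem_divisors.2 ⟨h13, by norm_num⟩) h10
    rcases hs with rfl | rfl | rfl
    · rw [one_mul] at h11
      rw [h11] at h12
      have := Nat.le_of_dvd (by norm_num) h12
      have h14 := h9.trans h12
      norm_num at h14
    · have h13 : i ∣ 27 := by
        obtain ⟨j, hj⟩ := h7
        exact ⟨j, by nlinarith⟩
      have h14 : ∀ i ∈ Nat.divisors 27, i = 1 ∨ i = 3 ∨ i = 9 ∨ i = 27 := by decide +kernel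
      rcases h14 i (Nat.mem_divisors.2 ⟨h13, by norm_num⟩) with rfl | rfl | rfl | rfl
      · revert h5; decide
      · revert h5; decide
      · have hc : c = 168 := by omega
        rw [hc] at h9
        norm_num at h9
      · have hc : c = 56 := by omega
        rw [hc] at h9
        norm_num at h9
    · have h13 : i ≤ 6 := by
        have := Nat.le_of_dvd (by norm_num) h7
        omega
      revert h5
      interval_cases i <;> decide
  · -- `e = 3`
    obtain ⟨F1, F2, a1, a2, a3, b1, b2, b3, c1, c2⟩ := hA.three he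
    rcases F_cases F1 a1 b1 c1 with rfl | rfl | rfl <;> rcases F_cases F2 a2 b2 c2 with rfl | rfl | rfl <;>
      revert a3 <;> decide
  · -- `e = 6`
    have hv : v = 1 := by rw [he] at hev; omega
    have hCP : centralizer ((P : Subgroup G) : Set G) = (P : Subgroup G) := by
      symm
      apply Subgroup.eq_of_le_of_card_ge
      · have : IsMulCommutative (P : Subgroup G) := by
          have hc : IsCyclic (P : Subgroup G) := isCyclic_of_prime_card (p := 7) hS.card
          exact ⟨⟨fun a b => (IsCyclic.commGroup (α := (P : Subgroup G))).mul_comm a b⟩⟩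
        exact Subgroup.le_centralizer (P : Subgroup G)
      · rw [hC, hv, hS.card]
    have := Fintype.ofFinite (P : Subgroup G)
    obtain ⟨χ, h1, h2⟩ := exists_six hG h hS hn.symm he
    exact no_six hG h hS hN42 hCP χ h1 h2

end Cfsg.Agent.H52.N1512
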