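import Mathlib
import Cfsg.Agent.H74.OrdersB3

/-! There is no simple group of order 1800 or 1764. -/

set_option autoImplicit false

namespace Cfsg.Agent.H52

open Cfsg Subgroup MulAction H74.SvB

universe u

variable {G : Type u} [Group G] [Finite G] [IsSimpleGroup G]

theorem n1800 (hG : ¬ IsMulCommutative G) : Nat.card G ≠ 1800 := by
  intro h
  have : Fact (Nat.Prime 5) := ⟨by norm_num⟩
  have h1 := H17.card_sylow_mem (p := 5) (G := G) (k := 2) (m := 72) (by rw [h]; rfl) (by norm_num)
  rw [show (Nat.divisors 72).filter (· % 5 = 1) = {1, 6, 36} by decide +kernel] at h1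
  have h2 := H17.card_sylow_ne_one (p := 5) hG (by rw [h]; norm_num)
  have h4 : ¬ Nat.card (Sylow 5 G) ≡ 1 [MOD 5 ^ 2] := by
    simp only [Finset.mem_insert, Finset.mem_singleton] at h1
    rcases h1 with h1 | h1 | h1
    · exact absurd h1 h2
    · rw [h1]; decide
    · rw [h1]; decide
  obtain ⟨P, D, hDc, hDP, hPC, hNt, hN1, hN2, hN3⟩ := H17.exists_subgroup_of_sq (p := 5) (G := G) (m := 72)
    (by rw [h]; rfl) (by norm_num) h4
  have h5 := H17.two_mul_card_dvd_factorial hG _ hNt
  rw [h] at h5
  have h6 : 6 ≤ Nat.card (Sylow 5 (Subgroup.normalizer (D : Set G))) := by omega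
  have h8 : 0 < (Subgroup.normalizer (D : Set G)).index := Nat.pos_of_ne_zero Subgroup.FiniteIndex.index_ne_zero
  have h9 := Subgroup.card_mul_index (Subgroup.normalizer (D : Set G))
  rw [h] at h9
  have h10 := H74.SvB.one_of_two_mul (G := Subgroup.normalizer (D : Set G)) (m := 75) (Or.inl rfl)
  have h7 : Nat.card (Sylow 5 (Subgroup.normalizer (D : Set G))) * (Subgroup.normalizer (D : Set G)).index ≤ 72 :=
    Nat.le_of_dvd (by norm_num) hN3
  have hi18 : (Subgroup.normalizer (D : Set G)).index ≤ 12 := by nlinarith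
  generalize Nat.card (Sylow 5 (Subgroup.normalizer (D : Set G))) = s at *
  generalize (Subgroup.normalizer (D : Set G)).index = i at *
  generalize Nat.card (Subgroup.normalizer (D : Set G)) = c at *
  have hi : 10 ≤ i := by
    by_contra h11
    revert h5
    interval_cases i <;> decide
  have hs : s ≤ 7 := by nlinarith
  have hs6 : s = 6 := by omega
  subst hs6
  have hi' : i ∣ 12 := by
    obtain ⟨t, ht⟩ := hN3
    exact ⟨t, by nlinarith⟩
  have hi2 : i = 12 := by
    interval_cases i <;> revert hi' <;> decide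
  subst hi2
  have := h10 (by omega)
  omega

theorem n1764 (hG : ¬ IsMulCommutative G) : Nat.card G ≠ 1764 := by
  intro h
  have : Fact (Nat.Prime 7) := ⟨by norm_num⟩
  have h1 := H17.card_sylow_mem (p := 7) (G := G) (k := 2) (m := 36) (by rw [h]; rfl) (by norm_num)
  rw [show (Nat.divisors 36).filter (· % 7 = 1) = {1, 36} by decide +kernel] at h1
  have h2 := H17.card_sylow_ne_one (p := 7) hG (by rw [h]; norm_num)
  simp only [Finset.mem_insert, Finset.mem_singleton] at h1
  rcases h1 with h1 | h1
  · exact h2 h1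
  · obtain ⟨P⟩ : Nonempty (Sylow 7 G) := inferInstance
    have h4 := H17.card_normalizer_mul P
    rw [h1, h] at h4
    have hc : Nat.card (P : Subgroup G) = 49 :=
      H17.card_sylow_eq P (k := 2) (m := 36) (by rw [h]; rfl) (by norm_num)
    have hab : IsMulCommutative (P : Subgroup G) := IsPGroup.isMulCommutative_of_card_eq_prime_sq (p := 7) hc
    have h5 : Nat.card (normalizer ((P : Subgroup G) : Set G)) = 49 := by omega
    have h6 : (P : Subgroup G) = normalizer ((P : Subgroup G) : Set G) := by
      apply Subgroup.eq_of_le_of_card_ge Subgroup.le_normalizer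
      rw [h5, hc]
    apply H17.not_normalizer_le_centralizer (p := 7) hG (by rw [h]; norm_num) P
    rw [← h6]
    exact Subgroup.le_centralizer P.1

end Cfsg.Agent.H52
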