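import Mathlib
import Cfsg.Agent.H74.OrdersB3
import Cfsg.Agent.S0105

/-! There is no simple group of order 3600. -/

set_option autoImplicit false

namespace Cfsg.Agent.H52

open Cfsg Subgroup MulAction H74.SvB

universe u

variable {G : Type u} [Group G] [Finite G] [IsSimpleGroup G]

theorem zN_trivial {p : ℕ} [hp : Fact p.Prime] (hG : ¬ IsMulCommutative G) (P : Sylow p G)
    (hP : IsMulCommutative (P : Subgroup G)) {y : G} (hy : y ∈ (P : Subgroup G))
    (hyN : ∀ n ∈ normalizer ((P : Subgroup G) : Set G), n * y = y * n) : y = 1 := by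
  obtain ⟨N, hN, ⟨e⟩⟩ := Cfsg.Agent.S0105.result P hP
  rcases hN.eq_bot_or_eq_top with h | h
  · exfalso
    apply hG
    subst h
    refine IsMulCommutative.of_comm fun a b => ?_
    have h1 : (QuotientGroup.mk' (⊥ : Subgroup G)) (a * b) = (QuotientGroup.mk' (⊥ : Subgroup G)) (b * a) := by
      apply e.injective
      rw [map_mul, map_mul, map_mul, map_mul]
      apply Subtype.ext
      have h2 := (e (QuotientGroup.mk' (⊥ : Subgroup G) a)).2
      have h3 := (e (QuotientGroup.mk' (⊥ : Subgroup G) b)).2
      have h5 : ∀ u ∈ (P : Subgroup G), ∀ v ∈ (P : Subgroup G), u * v = v * u := by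
        intro u hu v hv
        exact congrArg Subtype.val (mul_comm' (⟨u, hu⟩ : (P : Subgroup G)) ⟨v, hv⟩)
      rw [Subgroup.coe_mul, Subgroup.coe_mul]
      exact h5 _ h2.1 _ h3.1
    have h4 := QuotientGroup.eq.1 h1
    rw [mem_bot] at h4
    have : a * b = b * a := by
      have := congrArg (fun z => (a * b) * z) h4
      simpa [mul_assoc] using this.symm
    exact this
  · have : Subsingleton (G ⧸ N) := QuotientGroup.subsingleton_iff.2 h
    have h1 : y ∈ ((P : Subgroup G) ⊓ Subgroup.centralizer (Subgroup.normalizer (P : Set G) : Set G) : Subgroup G) := by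
      refine mem_inf.2 ⟨hy, mem_centralizer_iff.2 fun n hn => hyN n hn⟩
    have h2 : e.symm ⟨y, h1⟩ = e.symm 1 := Subsingleton.elim _ _
    have h3 := e.symm.injective h2
    exact congrArg Subtype.val h3

theorem n3600_aux (hG : ¬ IsMulCommutative G) (h : Nat.card G = 3600) [Fact (Nat.Prime 5)] (P : Sylow 5 G)
    (hPc : Nat.card (P : Subgroup G) = 25)
    (hab : ∀ R : Sylow 5 G, IsMulCommutative (R : Subgroup G)) {x : G} (hx : x ∈ (P : Subgroup G)) (hx1 : x ≠ 1)
    (hf : fs 5 x ≠ 1) : Nat.card (centralizer ({x} : Set G)) = 300 ∧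
      Nat.card (centralizer ({x} : Set G) ⊓ normalizer ((P : Subgroup G) : Set G) : Subgroup G) = 50 := by
  have hPC : (P : Subgroup G) ≤ centralizer ({x} : Set G) := by
    intro y hy
    rw [mem_centralizer_singleton_iff]
    have := hab P
    exact congrArg Subtype.val (mul_comm' (⟨y, hy⟩ : (P : Subgroup G)) ⟨x, hx⟩)
  have hfe := fs_eq hab P hx
  have h1 := card_cent P hPC
  have h2 := H17.card_sylow_mul_index_dvd P hPC
  have h3 : (P : Subgroup G).index = 144 := H17.card_sylow_mul P (k := 2) (m := 144) (by rw [h]; rfl) (by norm_num)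
  rw [h3] at h2
  have h4 := H17.card_sylow_mod (p := 5) (G := centralizer ({x} : Set G))
  have hCt : centralizer ({x} : Set G) ≠ ⊤ := by
    intro h5
    apply hx1
    have h6 : x ∈ center G := by
      rw [mem_center_iff]
      intro g
      have : g ∈ centralizer ({x} : Set G) := by rw [h5]; exact mem_top g
      exact mem_centralizer_singleton_iff.1 this
    rw [H17.center_eq_bot hG] at h6
    exact h6
  have h5 := H17.two_mul_card_dvd_factorial hG _ hCt
  rw [h] at h5
  have h6 := Subgroup.card_mul_index (centralizer ({x} : Set G))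
  rw [h] at h6
  have h9 : 10 ≤ (centralizer ({x} : Set G)).index := by
    by_contra h10
    have h11 : 0 < (centralizer ({x} : Set G)).index := Nat.pos_of_ne_zero Subgroup.FiniteIndex.index_ne_zero
    revert h5
    generalize (centralizer ({x} : Set G)).index = i at *
    interval_cases i <;> decide
  have h10 := one_of_two_mul (G := centralizer ({x} : Set G)) (m := 75) (Or.inl rfl)
  rw [hfe] at hf
  generalize Nat.card (Sylow 5 (centralizer ({x} : Set G))) = s at *
  generalize (centralizer ({x} : Set G)).index = i at *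
  generalize Nat.card (centralizer ({x} : Set G) ⊓ normalizer ((P : Subgroup G) : Set G) : Subgroup G) = k at *
  generalize Nat.card (centralizer ({x} : Set G)) = c at *
  have h14 : s * i ≤ 144 := Nat.le_of_dvd (by norm_num) h2
  have h12 : s ∣ 144 := (Dvd.intro _ rfl).trans h2
  have h13 : s = 6 := by
    have h15 : s ≤ 14 := by nlinarith
    interval_cases s <;> omega
  subst h13
  have h16 : i ∣ 24 := by
    obtain ⟨t, ht⟩ := h2
    exact ⟨t, by nlinarith⟩
  have h17 : i ≤ 24 := by omega
  have h18 : i = 12 ∨ i = 24 := by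
    interval_cases i <;> revert h16 <;> decide
  rcases h18 with rfl | rfl
  · have hc : c = 300 := by omega
    exact ⟨hc, by omega⟩
  · exfalso
    have := h10 (by omega)
    omega

theorem n3600 (hG : ¬ IsMulCommutative G) : Nat.card G ≠ 3600 := by
  classical
  intro h
  have := Fintype.ofFinite G
  have hp5 : Fact (Nat.Prime 5) := ⟨by norm_num⟩
  have h1 := H17.card_sylow_mem (p := 5) (G := G) (k := 2) (m := 144) (by rw [h]; rfl) (by norm_num)
  rw [show (Nat.divisors 144).filter (· % 5 = 1) = {1, 6, 16, 36} by decide +kernel] at h1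
  have h2 := H17.card_sylow_ne_one (p := 5) hG (by rw [h]; norm_num)
  have h3 := H17.two_mul_card_dvd_factorial_card_sylow (p := 5) hG (by rw [h]; norm_num)
  obtain ⟨P⟩ : Nonempty (Sylow 5 G) := inferInstance
  have hcard : ∀ R : Sylow 5 G, Nat.card (R : Subgroup G) = 25 := fun R =>
    H17.card_sylow_eq R (k := 2) (m := 144) (by rw [h]; rfl) (by norm_num)
  have hab : ∀ R : Sylow 5 G, IsMulCommutative (R : Subgroup G) := fun R =>
    IsPGroup.isMulCommutative_of_card_eq_prime_sq (p := 5) (hcard R)
  have hn := H17.card_normalizer_mul P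
  have hs : Nat.card (Sylow 5 G) = 16 ∨ Nat.card (Sylow 5 G) = 36 := by
    simp only [Finset.mem_insert, Finset.mem_singleton] at h1
    rcases h1 with h1 | h1 | h1 | h1
    · exact absurd h1 h2
    · exfalso
      rw [h, h1] at h3
      revert h3
      decide
    · exact Or.inl h1
    · exact Or.inr h1
  -- an element `x ≠ 1` in two Sylow subgroups
  obtain ⟨R, hPR, hidx⟩ := H17.exists_sylow_pair (p := 5) 2 (by rcases hs with h4 | h4 <;> rw [h4] <;> decide) P
  obtain ⟨x, hxP, hxR, hx1⟩ : ∃ x ∈ (P : Subgroup G), x ∈ (R : Subgroup G) ∧ x ≠ 1 := by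
    by_contra hcon
    push Not at hcon
    have h5 : (P : Subgroup G) ⊓ (R : Subgroup G) = ⊥ := by
      rw [eq_bot_iff]
      intro z hz
      exact mem_bot.2 (hcon z hz.1 hz.2)
    have h6 : (R : Subgroup G).relIndex (P : Subgroup G) = 25 := by
      rw [← inf_relIndex_left, h5, relIndex_bot_left, hcard]
    have h7 : (R : Subgroup G).relIndex (P : Subgroup G) ≤ 5 ^ (2 - 1) := hidx
    rw [h6] at h7
    omega
  have hfx : fs 5 x ≠ 1 := by
    intro h5
    unfold fs at h5
    have h6 : Subsingleton {R : Sylow 5 G // x ∈ (R : Subgroup G)} := (Nat.card_eq_one_iff_unique.mp h5).1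
    have h7 := h6.elim ⟨P, hxP⟩ ⟨R, hxR⟩
    exact hPR (congrArg Subtype.val h7)
  obtain ⟨hC, hH⟩ := n3600_aux hG h P (hcard P) hab hxP hx1 hfx
  set Np := normalizer ((P : Subgroup G) : Set G) with hNp
  set H := centralizer ({x} : Set G) ⊓ Np with hHd
  have hN100 : Nat.card Np = 100 := by
    have h5 : Nat.card H ∣ Nat.card Np := Subgroup.card_dvd_of_le inf_le_right
    rw [hH] at h5
    rcases hs with h6 | h6
    · rw [h6, h] at hn
      have h7 : Nat.card Np = 225 := by omega
      rw [h7] at h5
      norm_num at h5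
    · rw [h6, h] at hn
      omega
  -- normalizers of `⟨x⟩`
  have hno : ∀ z : G, z ≠ 1 → Nat.card (centralizer ({z} : Set G)) = 300 → ∀ g : G,
      g * z * g⁻¹ ∈ zpowers z → g ∈ centralizer ({z} : Set G) := by
    intro z hz1 hzc g hg
    by_contra hgn
    -- the stabiliser of `⟨z⟩`
    set M := normalizer ((zpowers z : Subgroup G) : Set G) with hM
    have hle : centralizer ({z} : Set G) ≤ M := by
      refine le_trans ?_ (centralizer_le_normalizer ((zpowers z : Subgroup G) : Set G))
      intro c hc
      rw [mem_centralizer_iff]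
      intro u hu
      obtain ⟨n, rfl⟩ := mem_zpowers_iff.1 hu
      have hc' : Commute c z := mem_centralizer_singleton_iff.1 hc
      exact (hc'.zpow_right n).symm.eq
    have hgM : g ∈ M := by
      have h5 : (zpowers z).map (MulAut.conj g).toMonoidHom ≤ zpowers z := by
        rw [MonoidHom.map_zpowers]
        rw [zpowers_le]
        exact hg
      have h6 : (zpowers z).map (MulAut.conj g).toMonoidHom = zpowers z := by
        apply Subgroup.eq_of_le_of_card_ge h5
        rw [Subgroup.card_map_of_injective (MulAut.conj g).injective]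
      rw [hM, mem_normalizer_iff]
      intro w
      constructor
      · intro hw
        exact h5 ⟨w, hw, rfl⟩
      · intro hw
        rw [← h6] at hw
        obtain ⟨w', hw', hww⟩ := hw
        have : w = w' := by
          have h7 : g * w' * g⁻¹ = g * w * g⁻¹ := hww
          have h8 := mul_left_cancel (mul_right_cancel h7)
          exact h8.symm
        rw [this]
        exact hw'
    have hlt : Nat.card (centralizer ({z} : Set G)) ≠ Nat.card M := by
      intro h5
      have h6 := Subgroup.eq_of_le_of_card_ge hle h5.ge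
      rw [← h6] at hgM
      exact hgn hgM
    have hdv : Nat.card (centralizer ({z} : Set G)) ∣ Nat.card M := Subgroup.card_dvd_of_le hle
    have hMt : M ≠ ⊤ := by
      intro h5
      have h6 : (zpowers z).Normal := normalizer_eq_top_iff.mp h5
      rcases h6.eq_bot_or_eq_top with h7 | h7
      · exact hz1 (zpowers_eq_bot.1 h7)
      · apply hG
        refine IsMulCommutative.of_comm fun a b => ?_
        obtain ⟨m, hm⟩ := mem_zpowers_iff.1 (h7 ▸ mem_top a : a ∈ zpowers z)
        obtain ⟨n, hn⟩ := mem_zpowers_iff.1 (h7 ▸ mem_top b : b ∈ zpowers z)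
        rw [← hm, ← hn, ← zpow_add, ← zpow_add, add_comm]
    have h8 := H17.two_mul_card_dvd_factorial hG M hMt
    rw [h] at h8
    have h9 := Subgroup.card_mul_index M
    rw [h] at h9
    rw [hzc] at hdv hlt
    obtain ⟨j, hj⟩ := hdv
    rw [hj] at h9 hlt
    have h10 : j * M.index = 12 := by nlinarith
    have h11 : 2 ≤ j := by
      rcases Nat.lt_or_ge j 2 with h12 | h12
      · exfalso
        interval_cases j
        · omega
        · exact hlt (by norm_num)
      · exact h12
    have h12 : M.index ≤ 6 := by nlinarith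
    revert h8
    generalize M.index = i at *
    interval_cases i <;> decide
  -- an element outside `H`
  have hHle : H ≤ Np := inf_le_right
  obtain ⟨w, hwN, hwH⟩ : ∃ w ∈ Np, w ∉ H := by
    by_contra hcon
    push Not at hcon
    have : Nat.card Np ≤ Nat.card H := by
      have h5 : Np ≤ H := hcon
      exact Subgroup.card_le_of_le h5
    omega
  have hHn : ∀ g ∈ Np, ∀ k ∈ H, g * k * g⁻¹ ∈ H := by
    have h5 : (H.subgroupOf Np).index = 2 := by
      have h6 := H17.relIndex_mul_card_of_le hHle
      rw [hH, hN100] at h6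
      have : H.relIndex Np = 2 := by omega
      exact this
    have h6 : (H.subgroupOf Np).Normal := normal_of_index_eq_two h5
    intro g hg k hk
    have h7 := h6.conj_mem ⟨k, hHle hk⟩ (mem_subgroupOf.2 hk) ⟨g, hg⟩
    exact mem_subgroupOf.1 h7
  have hw2 : w * w ∈ H := by
    have h5 : (H.subgroupOf Np).index = 2 := by
      have h6 := H17.relIndex_mul_card_of_le hHle
      rw [hH, hN100] at h6
      have : H.relIndex Np = 2 := by omega
      exact this
    have h6 := (mul_self_mem_of_index_two h5 ⟨w, hwN⟩)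
    exact mem_subgroupOf.1 h6
  have hcos : ∀ g ∈ Np, g ∉ H → w⁻¹ * g ∈ H := by
    have h5 : (H.subgroupOf Np).index = 2 := by
      have h6 := H17.relIndex_mul_card_of_le hHle
      rw [hH, hN100] at h6
      have : H.relIndex Np = 2 := by omega
      exact this
    intro g hg hgH
    have h6 := (mul_mem_iff_of_index_two h5 (a := ⟨w, hwN⟩⁻¹) (b := ⟨g, hg⟩))
    have h7 : (⟨w, hwN⟩⁻¹ : Np) ∉ H.subgroupOf Np := by
      rw [inv_mem_iff]
      exact fun h => hwH (mem_subgroupOf.1 h)
    have h8 : (⟨g, hg⟩ : Np) ∉ H.subgroupOf Np := fun h => hgH (mem_subgroupOf.1 h)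
    have h9 := h6.2 ⟨fun h => absurd h h7, fun h => absurd h h8⟩
    exact mem_subgroupOf.1 h9
  -- the conjugate
  set x' := w * x * w⁻¹ with hx'
  have hx'P : x' ∈ (P : Subgroup G) := (mem_normalizer_iff.1 hwN x).1 hxP
  have hx'z : x' ∉ zpowers x := by
    intro h5
    exact hwH (mem_inf.2 ⟨hno x hx1 hC w h5, hwN⟩)
  have hHx : ∀ k ∈ H, k * x = x * k := fun k hk => mem_centralizer_singleton_iff.1 hk.1
  have hHx' : ∀ k ∈ H, k * x' = x' * k := by
    intro k hk
    have h5 := hHn w⁻¹ (inv_mem hwN) k hk
    rw [inv_inv] at h5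
    have h6 := hHx _ h5
    have h7 : w * (w⁻¹ * k * w * x) * w⁻¹ = w * (x * (w⁻¹ * k * w)) * w⁻¹ := by rw [h6]
    calc k * x' = w * (w⁻¹ * k * w * x) * w⁻¹ := by rw [hx']; group
      _ = w * (x * (w⁻¹ * k * w)) * w⁻¹ := h7
      _ = x' * k := by rw [hx']; group
  have hHP : ∀ k ∈ H, ∀ y ∈ (P : Subgroup G), k * y = y * k := by
    intro k hk
    set D := (P : Subgroup G) ⊓ centralizer ({k} : Set G) with hD
    have hxD : x ∈ D := mem_inf.2 ⟨hxP, mem_centralizer_singleton_iff.2 (hHx k hk).symm⟩
    have hx'D : x' ∈ D := mem_inf.2 ⟨hx'P, mem_centralizer_singleton_iff.2 (hHx' k hk).symm⟩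
    have h5 : Nat.card D ∣ 25 := by
      rw [← hcard P]
      exact Subgroup.card_dvd_of_le inf_le_left
    have hox : orderOf x ∣ 25 := by
      rw [← hcard P]
      exact Subgroup.orderOf_dvd_natCard _ hxP
    have h6 : 5 ∣ orderOf x := by
      have h7 : orderOf x ≠ 1 := by rwa [Ne, orderOf_eq_one_iff]
      have h8 : ∀ d ∈ Nat.divisors 25, d ≠ 1 → 5 ∣ d := by decide +kernel
      exact h8 _ (Nat.mem_divisors.2 ⟨hox, by norm_num⟩) h7
    have h7 : zpowers x ≤ D := by rwa [zpowers_le]
    have h8 : Nat.card (zpowers x) ∣ Nat.card D := Subgroup.card_dvd_of_le h7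
    rw [Nat.card_zpowers] at h8
    have h9 : Nat.card D ≠ orderOf x := by
      intro h10
      have h11 : zpowers x = D := Subgroup.eq_of_le_of_card_ge h7 (by rw [Nat.card_zpowers, h10])
      rw [← h11] at hx'D
      exact hx'z hx'D
    have h10 : Nat.card D = 25 := by
      have h11 : ∀ d ∈ Nat.divisors 25, ∀ o ∈ Nat.divisors 25, 5 ∣ o → o ∣ d → d ≠ o → d = 25 := by decide +kernel
      exact h11 _ (Nat.mem_divisors.2 ⟨h5, by norm_num⟩) _ (Nat.mem_divisors.2 ⟨hox, by norm_num⟩) h6 h8 h9
    have h11 : D = (P : Subgroup G) := Subgroup.eq_of_le_of_card_ge inf_le_left (by rw [h10, hcard])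
    intro y hy
    rw [← h11] at hy
    exact (mem_centralizer_singleton_iff.1 hy.2).symm
  -- the product
  have hcomm : ∀ a ∈ (P : Subgroup G), ∀ b ∈ (P : Subgroup G), a * b = b * a := by
    intro a ha b hb
    have := hab P
    exact congrArg Subtype.val (mul_comm' (⟨a, ha⟩ : (P : Subgroup G)) ⟨b, hb⟩)
  have hy1 : x * x' = 1 := by
    apply zN_trivial hG P (hab P) (mul_mem hxP hx'P)
    have hw : w * (x * x') = (x * x') * w := by
      have h5 := hHP _ hw2 x hxP
      calc w * (x * x') = (w * x * w⁻¹) * (w * w * x) * w⁻¹ := by rw [hx']; group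
        _ = (w * x * w⁻¹) * (x * (w * w)) * w⁻¹ := by rw [h5]
        _ = (x' * x) * w := by rw [hx']; group
        _ = (x * x') * w := by rw [hcomm x' hx'P x hxP]
    intro n hn
    by_cases hnH : n ∈ H
    · exact hHP n hnH _ (mul_mem hxP hx'P)
    · have h6 := hHP _ (hcos n hn hnH) _ (mul_mem hxP hx'P)
      calc n * (x * x') = w * (w⁻¹ * n * (x * x')) := by group
        _ = w * ((x * x') * (w⁻¹ * n)) := by rw [h6]
        _ = (w * (x * x')) * (w⁻¹ * n) := by group
        _ = ((x * x') * w) * (w⁻¹ * n) := by rw [hw]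
        _ = x * x' * n := by group
  apply hx'z
  have : x' = x⁻¹ := (inv_eq_of_mul_eq_one_right hy1).symm
  rw [this]
  exact inv_mem (mem_zpowers x)

end Cfsg.Agent.H52
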