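import Cfsg.Agent.H75.Zeros

/-! Sums of non-negative characters over Galois stable sets. -/

set_option autoImplicit false

open Cfsg Cfsg.Agent.CharBase Cfsg.Agent
open scoped ComplexConjugate

namespace Cfsg.Agent.H52

universe u

variable {G : Type u} [Group G]

/-- If the character `χ` takes positive real values on `S`, where `S` is stable under all powers `k`
prime to `|G|`, then the sum of `χ` over `S` is at least `|S|`. -/
theorem card_le_sum_of_pos [Finite G] {χ : G → ℂ} (hχ : IsCharacter G χ) (S : Finset G)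
    (hS : ∀ k : ℕ, k.Coprime (Nat.card G) → ∀ g ∈ S, g ^ k ∈ S)
    (h0 : ∀ g ∈ S, (χ g).im = 0 ∧ 0 < (χ g).re) :
    (S.card : ℝ) ≤ ∑ g ∈ S, (χ g).re := by
  classical
  have hprod : ∃ m : ℤ, ∏ g ∈ S, χ g = m := by
    apply Char.exists_int_of_fixed (n := Nat.card G) Nat.card_pos.ne'
    · exact Subring.prod_mem _ (fun g _ => Char.char_mem_closure hχ g dvd_rfl)
    · intro k σ hk hσ
      rw [map_prod]
      have h1 : ∀ g ∈ S, σ (χ g) = χ (g ^ k) := fun g _ =>
        Char.map_char_eq hχ g (orderOf_dvd_natCard g) σ hσ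
      rw [Finset.prod_congr rfl h1]
      have hinj : Function.Injective (fun g : G => g ^ k) := (powCoprime hk.symm).injective
      have h2 : S.image (fun g => g ^ k) = S := by
        apply Finset.eq_of_subset_of_card_le
        · intro x hx
          obtain ⟨g, hg, rfl⟩ := Finset.mem_image.mp hx
          exact hS k hk g hg
        · rw [Finset.card_image_of_injective _ hinj]
      calc ∏ g ∈ S, χ (g ^ k) = ∏ g ∈ S.image (fun g => g ^ k), χ g := by
            rw [Finset.prod_image (fun a _ b _ h => hinj h)]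
        _ = _ := by rw [h2]
  obtain ⟨m, hm⟩ := hprod
  have hreal : ∀ g ∈ S, χ g = (((χ g).re : ℝ) : ℂ) := by
    intro g hg
    apply Complex.ext
    · simp
    · simpa using (h0 g hg).1
  have hm2 : ((∏ g ∈ S, (χ g).re : ℝ) : ℂ) = ((m : ℝ) : ℂ) := by
    rw [Complex.ofReal_prod, ← Finset.prod_congr rfl hreal, hm]; simp
  have hm3 : ∏ g ∈ S, (χ g).re = (m : ℝ) := by exact_mod_cast hm2
  have hmpos : 0 < (m : ℝ) := by
    rw [← hm3]
    exact Finset.prod_pos fun g hg => (h0 g hg).2
  have hm1 : (1 : ℝ) ≤ ∏ g ∈ S, (χ g).re := by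
    rw [hm3]
    have : 0 < m := by exact_mod_cast hmpos
    exact_mod_cast this
  have h3 : 0 ≤ ∑ g ∈ S, Real.log ((χ g).re) := by
    rw [← Real.log_prod (fun g hg => (h0 g hg).2.ne')]
    exact Real.log_nonneg hm1
  have h4 : ∑ g ∈ S, Real.log ((χ g).re) ≤ ∑ g ∈ S, ((χ g).re - 1) :=
    Finset.sum_le_sum (fun g hg => Real.log_le_sub_one_of_pos (h0 g hg).2)
  rw [Finset.sum_sub_distrib, Finset.sum_const, nsmul_eq_mul, mul_one] at h4
  linarith

/-- `∑ |χ|² = |G|`, in real form. -/
theorem sum_normSq_irr [Fintype G] (χ : IrrCharacter G) :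
    ∑ g : G, Complex.normSq ((χ : G → ℂ) g) = (Nat.card G : ℝ) := by
  have h3 := classInner_irr_self χ
  unfold classInner at h3
  have h4 : (Nat.card G : ℂ) ≠ 0 := by exact_mod_cast Nat.card_pos.ne'
  rw [inv_mul_eq_one₀ h4] at h3
  have : ((Nat.card G : ℝ) : ℂ) = ((∑ g : G, Complex.normSq ((χ : G → ℂ) g) : ℝ) : ℂ) := by
    rw [Complex.ofReal_sum]
    simp only [Complex.normSq_eq_conj_mul_self]
    push_cast
    rw [h3]
    exact Finset.sum_congr rfl (fun g _ => mul_comm _ _)
  exact_mod_cast this.symm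

end Cfsg.Agent.H52
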