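import Cfsg.Agent.H12.WielandtType

set_option autoImplicit false
set_option linter.unusedSectionVars false

/-! Subdegrees of a transitive group of degree `3p` whose permutation character is the sum of `1` and of
irreducible characters of degrees `2p - 1` and `p`. -/

namespace Cfsg.Agent.H52.Deg3p

open scoped ComplexConjugate
open Cfsg Cfsg.Agent.CharBase Representation MulAction Cfsg.Agent.H12

universe u v w

section

variable {G : Type u} [Group G] [Fintype G] {Ω : Type v} [Fintype Ω] [MulAction G Ω]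

/-- the rank of a permutation group whose permutation character has three distinct constituents -/
theorem rank_eq_three [IsPretransitive G Ω] (χ₁ χ₂ : IrrCharacter G)
    (hπ : permChar G Ω = fun g => 1 + (χ₁ : G → ℂ) g + (χ₂ : G → ℂ) g)
    (hd : (χ₁ : G → ℂ) 1 ≠ (χ₂ : G → ℂ) 1) (a : Ω) :
    Nat.card (orbitRel.Quotient (stabilizer G a) Ω) = 3 := by
  classical
  have : Nonempty Ω := ⟨a⟩
  obtain ⟨hinj, -, hmult⟩ := three_constituents χ₁ χ₂ hπ hd
  have h1 := classInner_permChar G Ω Ω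
  rw [card_orbits_prod_eq a] at h1
  have hπ' : permChar G Ω = (oneIrr G : G → ℂ) + (χ₁ : G → ℂ) + (χ₂ : G → ℂ) := by
    rw [hπ]; rfl
  have hexp : ∀ ψ : IrrCharacter G, classInner (permChar G Ω) (ψ : G → ℂ) =
      (if oneIrr G = ψ then 1 else 0) + (if χ₁ = ψ then 1 else 0) + (if χ₂ = ψ then 1 else 0) := by
    intro ψ
    rw [hπ', classInner_add_left, classInner_add_left, classInner_irr, classInner_irr,
      classInner_irr]
  have hsum : classInner (permChar G Ω) (permChar G Ω) = 3 := by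
    have h0 := hmult 0
    have h1 := hmult 1
    have h2 := hmult 2
    change classInner (permChar G Ω) (oneIrr G : G → ℂ) = 1 at h0
    change classInner (permChar G Ω) (χ₁ : G → ℂ) = 1 at h1
    change classInner (permChar G Ω) (χ₂ : G → ℂ) = 1 at h2
    have hr : classInner (permChar G Ω) ((oneIrr G : G → ℂ) + (χ₁ : G → ℂ) + (χ₂ : G → ℂ)) =
        classInner (permChar G Ω) (oneIrr G : G → ℂ) + classInner (permChar G Ω) (χ₁ : G → ℂ) +
        classInner (permChar G Ω) (χ₂ : G → ℂ) := by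
      rw [classInner_add_right, classInner_add_right]
    rw [← hπ', h0, h1, h2] at hr
    rw [hr]; norm_num
  rw [hsum] at h1
  exact_mod_cast h1.symm

/-- the equations satisfied by a subdegree: the eigenvalues of the orbital matrix are integers -/
theorem eigen_equation [IsPretransitive G Ω] {n f₁ f₂ : ℕ} (hn : Fintype.card Ω = n)
    (χ₁ χ₂ : IrrCharacter G)
    (hπ : permChar G Ω = fun g => 1 + (χ₁ : G → ℂ) g + (χ₂ : G → ℂ) g)
    (hd₁ : (χ₁ : G → ℂ) 1 = f₁) (hd₂ : (χ₂ : G → ℂ) 1 = f₂) (hf : f₁ ≠ f₂)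
    {a b c : Ω} (hba : b ≠ a) (hca : c ≠ a) (hcb : c ∉ orbit (stabilizer G a) b) :
    ∃ (β γ : ℂ) (s t : ℤ), β + γ = s ∧ β * γ = t ∧
      (Nat.card (orbit (stabilizer G a) b) : ℂ) + β * f₁ + γ * f₂ = 0 ∧
      (Nat.card (orbit (stabilizer G a) b) : ℂ) ^ 2 + β ^ 2 * f₁ + γ ^ 2 * f₂ =
        n * (Nat.card (orbit (stabilizer G a) b) : ℂ) := by
  classical
  have : Nonempty Ω := ⟨a⟩
  have hd : (χ₁ : G → ℂ) 1 ≠ (χ₂ : G → ℂ) 1 := by
    rw [hd₁, hd₂]
    intro h
    exact hf (by exact_mod_cast h)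
  have hrank := rank_eq_three χ₁ χ₂ hπ hd a
  obtain ⟨hinj, hreal, hmult⟩ := three_constituents χ₁ χ₂ hπ hd
  have hcard : Fintype.card (Fin 3) = Nat.card (orbitRel.Quotient G (Ω × Ω)) := by
    rw [card_orbits_prod_eq a, hrank, Fintype.card_fin]
  have hspan := centralizer_span _ hinj hreal hmult hcard
  have hsum := sum_isoProj _ hinj hreal hmult hcard
  have hgen : ∀ a b : Ω, ∃ g : G, g • a = b ∧ g • b = a := by
    apply generous_backward
    intro χ hχ h0
    have h1 : (⟨χ, hχ⟩ : IrrCharacter G) = oneIrr G ∨ (⟨χ, hχ⟩ : IrrCharacter G) = χ₁ ∨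
        (⟨χ, hχ⟩ : IrrCharacter G) = χ₂ := by
      by_contra hne
      push Not at hne
      apply h0
      have hπ' : permChar G Ω = (oneIrr G : G → ℂ) + (χ₁ : G → ℂ) + (χ₂ : G → ℂ) := by
        rw [hπ]; rfl
      change classInner (permChar G Ω) ((⟨χ, hχ⟩ : IrrCharacter G) : G → ℂ) = 0
      rw [hπ', classInner_add_left, classInner_add_left, classInner_irr_of_ne hne.1.symm,
        classInner_irr_of_ne hne.2.1.symm, classInner_irr_of_ne hne.2.2.symm]
      norm_num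
    have h2 : ∃ i : Fin 3, (⟨χ, hχ⟩ : IrrCharacter G) =
        (![oneIrr G, χ₁, χ₂] : Fin 3 → IrrCharacter G) i := by
      rcases h1 with h | h | h
      · exact ⟨0, h⟩
      · exact ⟨1, h⟩
      · exact ⟨2, h⟩
    obtain ⟨i, hi⟩ := h2
    have h3 : χ = ((![oneIrr G, χ₁, χ₂] : Fin 3 → IrrCharacter G) i : G → ℂ) :=
      congrArg Subtype.val hi
    rw [h3]
    exact ⟨hmult i, hreal i⟩
  obtain ⟨q, hq⟩ : ∃ q : orbitRel.Quotient G (Ω × Ω), q = Quotient.mk _ (b, a) := ⟨_, rfl⟩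
  obtain ⟨k, hk⟩ : ∃ k : ℕ, k = Nat.card (orbit (stabilizer G a) b) := ⟨_, rfl⟩
  have htr0 := trace_orbOp (G := G) hba
  have htr2 := trace_sq_orbOp hgen a b
  have hone := orbOp_one (K := ℂ) (G := G) a b
  rw [← hq] at htr0 htr2 hone
  rw [← hk] at htr2 hone ⊢
  have hmem : orbOp ℂ q ∈ ((permRep ℂ G Ω).linHom (permRep ℂ G Ω)).invariants :=
    (mem_linHom_invariants _).2 (orbOp_comm q)
  rw [hspan, Submodule.mem_span_range_iff_exists_fun] at hmem
  obtain ⟨c', hc'⟩ := hmem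
  have h01 : oneIrr G ≠ χ₁ := fun h => absurd (hinj (a₁ := 0) (a₂ := 1) h) (by decide)
  have h02 : oneIrr G ≠ χ₂ := fun h => absurd (hinj (a₁ := 0) (a₂ := 2) h) (by decide)
  have h12 : χ₁ ≠ χ₂ := fun h => absurd (hinj (a₁ := 1) (a₂ := 2) h) (by decide)
  obtain ⟨P0, hP0⟩ : ∃ P, P = isoProj Ω (oneIrr G) := ⟨_, rfl⟩
  obtain ⟨P1, hP1⟩ : ∃ P, P = isoProj Ω χ₁ := ⟨_, rfl⟩
  obtain ⟨P2, hP2⟩ : ∃ P, P = isoProj Ω χ₂ := ⟨_, rfl⟩
  obtain ⟨k0, hk0⟩ : ∃ k0, k0 = c' 0 := ⟨_, rfl⟩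
  obtain ⟨β, hβ⟩ : ∃ β, β = c' 1 := ⟨_, rfl⟩
  obtain ⟨γ, hγ⟩ : ∃ γ, γ = c' 2 := ⟨_, rfl⟩
  have hT : orbOp ℂ q = k0 • P0 + β • P1 + γ • P2 := by
    rw [← hc', Fin.sum_univ_three, hP0, hP1, hP2, hk0, hβ, hγ]
    rfl
  have hI : P0 + P1 + P2 = 1 := by
    rw [← hsum, Fin.sum_univ_three, hP0, hP1, hP2]
    rfl
  have e00 : P0 * P0 = P0 := by rw [hP0, isoProj_mul, if_pos rfl]
  have e01 : P0 * P1 = 0 := by rw [hP0, hP1, isoProj_mul, if_neg h01]
  have e02 : P0 * P2 = 0 := by rw [hP0, hP2, isoProj_mul, if_neg h02]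
  have e10 : P1 * P0 = 0 := by rw [hP0, hP1, isoProj_mul, if_neg h01.symm]
  have e11 : P1 * P1 = P1 := by rw [hP1, isoProj_mul, if_pos rfl]
  have e12 : P1 * P2 = 0 := by rw [hP1, hP2, isoProj_mul, if_neg h12]
  have e20 : P2 * P0 = 0 := by rw [hP0, hP2, isoProj_mul, if_neg h02.symm]
  have e21 : P2 * P1 = 0 := by rw [hP1, hP2, isoProj_mul, if_neg h12.symm]
  have e22 : P2 * P2 = P2 := by rw [hP2, isoProj_mul, if_pos rfl]
  have t0 : LinearMap.trace ℂ (Ω → ℂ) P0 = 1 := by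
    rw [hP0]
    exact trace_isoProj (oneIrr G) (hreal 0) (hmult 0)
  have t1 : LinearMap.trace ℂ (Ω → ℂ) P1 = f₁ := by
    rw [hP1, ← hd₁]
    exact trace_isoProj χ₁ (hreal 1) (hmult 1)
  have t2 : LinearMap.trace ℂ (Ω → ℂ) P2 = f₂ := by
    rw [hP2, ← hd₂]
    exact trace_isoProj χ₂ (hreal 2) (hmult 2)
  have hTT : orbOp ℂ q * orbOp ℂ q = (k0 ^ 2) • P0 + (β ^ 2) • P1 + (γ ^ 2) • P2 := by
    rw [hT]
    simp only [mul_add, add_mul, smul_mul_smul_comm, e00, e01, e02, e10, e11, e12, e20, e21, e22,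
      smul_zero, add_zero, zero_add, pow_two]
  -- k0 = k
  have hk0k : k0 = k := by
    have h1 : orbOp ℂ q * P0 = k0 • P0 := by
      rw [hT]
      simp only [add_mul, smul_mul_assoc, e00, e10, e20, smul_zero, add_zero]
    have h2 := LinearMap.congr_fun h1 (fun _ => 1)
    have h3 : P0 (fun _ => 1) = fun _ => 1 := by
      rw [hP0]
      exact isoProj_one_apply (oneIrr G) rfl
    change orbOp ℂ q (P0 (fun _ => 1)) = k0 • P0 (fun _ => 1) at h2
    rw [h3, hone] at h2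
    have h4 := congrFun h2 a
    rw [Pi.smul_apply, smul_eq_mul, mul_one] at h4
    exact h4.symm
  have hq1 : (k : ℂ) + β * f₁ + γ * f₂ = 0 := by
    rw [← htr0, hT, map_add, map_add, map_smul, map_smul, map_smul, t0, t1, t2, hk0k]
    simp only [smul_eq_mul, mul_one]
  have hq2 : (k : ℂ) ^ 2 + β ^ 2 * f₁ + γ ^ 2 * f₂ = n * k := by
    have h1 : ((Fintype.card Ω : ℕ) : ℂ) = n := by rw [hn]
    rw [h1] at htr2
    rw [← htr2, hTT, map_add, map_add, map_smul, map_smul, map_smul, t0, t1, t2, hk0k]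
    simp only [smul_eq_mul, mul_one]
  -- integrality
  have hrel : orbOp ℂ q * orbOp ℂ q - (β + γ) • orbOp ℂ q + (β * γ) • 1 =
      ((k0 - β) * (k0 - γ)) • P0 := by
    rw [hTT, hT, ← hI]
    simp only [smul_add, smul_smul]
    module
  have hentry : ∀ x y : Ω, (orbOp ℂ q * orbOp ℂ q) (Pi.single x 1) y -
      (β + γ) * orbOp ℂ q (Pi.single x 1) y + (β * γ) * (Pi.single x 1 : Ω → ℂ) y =
      ((k0 - β) * (k0 - γ)) * P0 (Pi.single x 1) y := by
    intro x y
    have := congrFun (LinearMap.congr_fun hrel (Pi.single x 1)) y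
    exact this
  have hPc : P0 (Pi.single b 1) a = P0 (Pi.single c 1) a := by
    rw [hP0]
    exact isoProj_one_single (oneIrr G) rfl _ _ _ _
  have hPa : P0 (Pi.single a 1) a = P0 (Pi.single c 1) a := by
    rw [hP0]
    exact isoProj_one_single (oneIrr G) rfl _ _ _ _
  have hb1 : orbOp ℂ q (Pi.single b 1) a = 1 := by
    rw [orbOp_single, if_pos hq.symm]
  have hc1 : orbOp ℂ q (Pi.single c 1) a = 0 := by
    rw [orbOp_single, if_neg]
    intro h
    rw [hq] at h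
    obtain ⟨g, hg⟩ := Quotient.exact h
    change (g • b, g • a) = (c, a) at hg
    obtain ⟨h1, h2⟩ := Prod.mk.inj hg
    exact hcb ⟨⟨g, h2⟩, h1⟩
  have ha1 : orbOp ℂ q (Pi.single a 1) a = 0 := by
    rw [orbOp_single, if_neg]
    intro h
    rw [hq] at h
    obtain ⟨g, hg⟩ := Quotient.exact h
    change (g • b, g • a) = (a, a) at hg
    obtain ⟨h1, h2⟩ := Prod.mk.inj hg
    exact hba (smul_left_cancel g (h1.trans h2.symm))
  obtain ⟨n1, hn1⟩ := sq_orbOp_single q b a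
  obtain ⟨n2, hn2⟩ := sq_orbOp_single q c a
  obtain ⟨n3, hn3⟩ := sq_orbOp_single q a a
  have hE1 := hentry b a
  have hE2 := hentry c a
  have hE3 := hentry a a
  rw [hn1, hb1, Pi.single_eq_of_ne hba.symm] at hE1
  rw [hn2, hc1, Pi.single_eq_of_ne hca.symm] at hE2
  rw [hn3, ha1, Pi.single_eq_same, hPa, ← hE2] at hE3
  rw [hPc, ← hE2] at hE1
  refine ⟨β, γ, (n1 : ℤ) - n2, (n2 : ℤ) - n3, ?_, ?_, hq1, hq2⟩
  · push_cast
    linear_combination -hE1
  · push_cast
    linear_combination hE3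

theorem int_of_rat_root {f₁ f₂ k : ℕ} (hf : f₁ ≠ f₂) {β γ : ℂ} {s t : ℤ} (h1 : β + γ = s)
    (h2 : β * γ = t) (h3 : (k : ℂ) + β * f₁ + γ * f₂ = 0) : ∃ b : ℤ, β = b := by
  -- `β` is rational
  have hf' : ((f₁ : ℂ) - f₂) ≠ 0 := by
    intro h
    apply hf
    have : (f₁ : ℂ) = f₂ := by linear_combination h
    exact_mod_cast this
  have hβ : β = ((-((k : ℚ) + s * f₂) / ((f₁ : ℚ) - f₂) : ℚ) : ℂ) := by
    push_cast
    rw [eq_div_iff hf']
    have : γ = s - β := by rw [← h1]; ring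
    rw [this] at h3
    linear_combination h3
  obtain ⟨r, hr⟩ : ∃ r : ℚ, r = (-((k : ℚ) + s * f₂) / ((f₁ : ℚ) - f₂) : ℚ) := ⟨_, rfl⟩
  rw [← hr] at hβ
  have hroot : r ^ 2 - s * r + t = 0 := by
    have : ((r ^ 2 - s * r + t : ℚ) : ℂ) = 0 := by
      push_cast
      rw [← hβ, ← h2, ← h1]; ring
    exact_mod_cast this
  have hint : IsIntegral ℤ r := by
    refine ⟨Polynomial.X ^ 2 - Polynomial.C s * Polynomial.X + Polynomial.C t, ?_, ?_⟩
    · monicity!
    · rw [Polynomial.eval₂_add, Polynomial.eval₂_sub, Polynomial.eval₂_mul, Polynomial.eval₂_pow,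
        Polynomial.eval₂_X, Polynomial.eval₂_C, Polynomial.eval₂_C]
      simpa using hroot
  obtain ⟨b, hb⟩ := IsIntegrallyClosed.isIntegral_iff.1 hint
  refine ⟨b, ?_⟩
  rw [hβ, ← hb]
  simp

theorem arith {p k : ℕ} (hp3 : 3 < p) {r s : ℤ} (hk1 : 1 ≤ k) (hk2 : k + 2 ≤ 3 * p)
    (h1 : (k : ℤ) + r * (2 * p - 1) + s * p = 0)
    (h2 : (k : ℤ) ^ 2 + r ^ 2 * (2 * p - 1) + s ^ 2 * p = 3 * p * k) :
    ∃ r' : ℤ, (2 * p : ℤ) = 6 * r' ^ 2 + 3 * r' + 1 ∧
      ((k : ℤ) = p + r' ∨ (k : ℤ) = 2 * p - 1 - r') := by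
  obtain ⟨u, hu⟩ : ∃ u : ℤ, u = -(2 * r + s) := ⟨_, rfl⟩
  have hs : s = -u - 2 * r := by rw [hu]; ring
  have hk : (k : ℤ) = r + p * u := by rw [hs] at h1; linear_combination h1
  have hp0 : (p : ℤ) ≠ 0 := by exact_mod_cast (by omega : p ≠ 0)
  have hp4 : (4 : ℤ) ≤ p := by exact_mod_cast hp3
  have hk1' : (1 : ℤ) ≤ k := by exact_mod_cast hk1
  have hk2' : (k : ℤ) + 2 ≤ 3 * p := by exact_mod_cast hk2
  have hE : 6 * r ^ 2 + (6 * u - 3) * r + u ^ 2 + p * (u * (u - 3)) = 0 := by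
    apply mul_left_cancel₀ hp0
    rw [hk, hs] at h2
    linear_combination h2
  have hu0 : 0 ≤ u := by
    by_contra hcon
    push Not at hcon
    nlinarith [sq_nonneg (12 * r + (6 * u - 3)), mul_pos (by linarith : (0:ℤ) < -u) (by linarith : (0:ℤ) < 3 - u),
      mul_le_mul_of_nonneg_right hp4 (mul_pos (by linarith : (0:ℤ) < -u) (by linarith : (0:ℤ) < 3 - u)).le]
  have hu3 : u ≤ 3 := by
    by_contra hcon
    push Not at hcon
    nlinarith [sq_nonneg (12 * r + (6 * u - 3)), mul_pos (by linarith : (0:ℤ) < u) (by linarith : (0:ℤ) < u - 3),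
      mul_le_mul_of_nonneg_right hp4 (mul_pos (by linarith : (0:ℤ) < u) (by linarith : (0:ℤ) < u - 3)).le]
  have hcases : u = 0 ∨ u = 1 ∨ u = 2 ∨ u = 3 := by omega
  rcases hcases with rfl | rfl | rfl | rfl
  · exfalso
    have h3 : r * (2 * r - 1) = 0 := by linarith
    rcases mul_eq_zero.1 h3 with h | h
    · rw [h] at hk; linarith
    · omega
  · refine ⟨r, ?_, Or.inl ?_⟩
    · linarith
    · linarith
  · refine ⟨-1 - r, ?_, Or.inr ?_⟩
    · linarith
    · linarith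
  · exfalso
    have h3 : (2 * r + 3) * (r + 1) = 0 := by linarith
    rcases mul_eq_zero.1 h3 with h | h
    · omega
    · have : r = -1 := by linarith
      rw [this] at hk
      linarith

/-- the subdegrees of a transitive group of degree `3p` with permutation character `1 + χ + ψ`, where
`χ` and `ψ` are irreducible of degrees `2p - 1` and `p` -/
theorem subdegrees [IsPretransitive G Ω] {p : ℕ} (hp3 : 3 < p)
    (hOm : Fintype.card Ω = 3 * p) (χ ψ : IrrCharacter G)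
    (hπ : permChar G Ω = fun g => 1 + (χ : G → ℂ) g + (ψ : G → ℂ) g)
    (hχ : (χ : G → ℂ) 1 = 2 * (p : ℂ) - 1) (hψ : (ψ : G → ℂ) 1 = p) (a : Ω) :
    ∃ r : ℤ, (2 * p : ℤ) = 6 * r ^ 2 + 3 * r + 1 ∧ ∀ b : Ω, b ≠ a →
      ((Nat.card (orbit (stabilizer G a) b) : ℤ) = p + r ∨
        (Nat.card (orbit (stabilizer G a) b) : ℤ) = 2 * p - 1 - r) := by
  classical
  have hχ' : (χ : G → ℂ) 1 = ((2 * p - 1 : ℕ) : ℂ) := by
    rw [hχ, Nat.cast_sub (by omega)]; push_cast; ring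
  have hne : 2 * p - 1 ≠ p := by omega
  have hrank := rank_eq_three χ ψ hπ (by
    rw [hχ', hψ]; intro h; exact hne (by exact_mod_cast h)) a
  -- every suborbit different from the point has another one
  have hthird : ∀ b : Ω, ∃ c : Ω, c ≠ a ∧ c ∉ orbit (stabilizer G a) b := by
    intro b
    by_contra hcon
    push Not at hcon
    have hsurj : Function.Surjective (fun i : Fin 2 =>
        (![Quotient.mk _ a, Quotient.mk _ b] : Fin 2 → orbitRel.Quotient (stabilizer G a) Ω) i) := by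
      intro x
      induction x using Quotient.inductionOn with
      | _ c =>
      by_cases hc : c = a
      · exact ⟨0, by rw [hc]; rfl⟩
      · refine ⟨1, ?_⟩
        obtain ⟨g, hg⟩ := hcon c hc
        exact (Quotient.sound ⟨g, hg⟩ : (Quotient.mk _ c : orbitRel.Quotient (stabilizer G a) Ω) =
          Quotient.mk _ b).symm
    have h2 := Nat.card_le_card_of_surjective _ hsurj
    rw [hrank] at h2
    simp at h2
  have hall : ∀ b : Ω, b ≠ a → ∃ r : ℤ, (2 * p : ℤ) = 6 * r ^ 2 + 3 * r + 1 ∧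
      ((Nat.card (orbit (stabilizer G a) b) : ℤ) = p + r ∨
        (Nat.card (orbit (stabilizer G a) b) : ℤ) = 2 * p - 1 - r) := by
    intro b hb
    obtain ⟨c, hca, hcb⟩ := hthird b
    obtain ⟨β, γ, s, t, h1, h2, h3, h4⟩ := eigen_equation hOm χ ψ hπ hχ' hψ hne hb hca hcb
    obtain ⟨r, hr⟩ := int_of_rat_root hne h1 h2 h3
    have hγ : γ = ((s - r : ℤ) : ℂ) := by
      push_cast
      rw [← hr, ← h1]; ring
    have hk1 : 1 ≤ Nat.card (orbit (stabilizer G a) b) := by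
      have : Nonempty (orbit (stabilizer G a) b) := ⟨⟨b, mem_orbit_self b⟩⟩
      exact Nat.card_pos
    have hk2 : Nat.card (orbit (stabilizer G a) b) + 2 ≤ 3 * p := by
      have h5 : c ∉ insert a (orbit (stabilizer G a) b) := by
        rintro (h | h)
        · exact hca h
        · exact hcb h
      have h6 : a ∉ orbit (stabilizer G a) b := by
        rintro ⟨g, hg⟩
        change g • b = a at hg
        apply hb
        have : g • a = a := g.2
        exact smul_left_cancel g (hg.trans this.symm)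
      have h7 : (insert c (insert a (orbit (stabilizer G a) b))).ncard ≤ 3 * p := by
        rw [← hOm, ← Nat.card_eq_fintype_card, ← Set.ncard_univ]
        exact Set.ncard_le_ncard (Set.subset_univ _) (Set.toFinite _)
      rw [Set.ncard_insert_of_notMem h5 (Set.toFinite _),
        Set.ncard_insert_of_notMem h6 (Set.toFinite _)] at h7
      exact h7
    obtain ⟨k, hk⟩ : ∃ k : ℕ, k = Nat.card (orbit (stabilizer G a) b) := ⟨_, rfl⟩
    rw [← hk] at h3 h4 hk1 hk2 ⊢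
    rw [hr, hγ, Nat.cast_sub (by omega : 1 ≤ 2 * p)] at h3 h4
    have h3' : (k : ℤ) + r * (2 * p - 1) + (s - r) * p = 0 := by exact_mod_cast h3
    have h4' : (k : ℤ) ^ 2 + r ^ 2 * (2 * p - 1) + (s - r) ^ 2 * p = 3 * p * k := by
      exact_mod_cast h4
    exact arith hp3 hk1 hk2 h3' h4'
  have hex : ∃ b : Ω, b ≠ a := by
    obtain ⟨c, hca, -⟩ := hthird a
    exact ⟨c, hca⟩
  obtain ⟨b₀, hb₀⟩ := hex
  obtain ⟨r, hr, -⟩ := hall b₀ hb₀
  refine ⟨r, hr, fun b hb => ?_⟩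
  obtain ⟨r', hr', h⟩ := hall b hb
  have : r' = r := by
    have h1 : (r' - r) * (6 * (r' + r) + 3) = 0 := by linear_combination hr - hr'
    rcases mul_eq_zero.1 h1 with h2 | h2
    · linarith
    · omega
  rw [this] at h
  exact h

end

end Cfsg.Agent.H52.Deg3p
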